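import Mathlib

/-!
# S1920, case A: the group `4 ∘ 2^{1+4} . S₆`, basic calculus (helper336)

`Sg z a b`: `a` and `b` commute up to the central involution `z`; `br a b ∈ ZMod 2` is the bit.
-/

set_option autoImplicit false

open Subgroup

namespace Cfsg.Agent.H336.Co3

variable {H : Type*} [Group H]

/-- The commutator bit. -/
noncomputable def br (a b : H) : ZMod 2 := by
  classical exact if a * b = b * a then 0 else 1

/-- `a`, `b` commute up to `z`. -/
def Sg (z a b : H) : Prop := a * b = b * a ∨ a * b = z * (b * a)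

theorem br_eq_zero {a b : H} : br a b = 0 ↔ a * b = b * a := by
  classical
  unfold br
  split_ifs with h
  · simp [h]
  · simp [h]

theorem br_ne_zero {a b : H} : br a b = 1 ↔ a * b ≠ b * a := by
  classical
  unfold br
  split_ifs with h
  · simp [h]
  · simp [h]

theorem br_symm (a b : H) : br a b = br b a := by
  classical
  unfold br
  by_cases h : a * b = b * a
  · rw [if_pos h, if_pos h.symm]
  · rw [if_neg h, if_neg (fun h' => h h'.symm)]

theorem br_self (a : H) : br a a = 0 := br_eq_zero.2 rfl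

theorem br_conj (h a b : H) : br (h * a * h⁻¹) (h * b * h⁻¹) = br a b := by
  classical
  unfold br
  have e : h * a * h⁻¹ * (h * b * h⁻¹) = h * b * h⁻¹ * (h * a * h⁻¹) ↔ a * b = b * a := by
    constructor
    · intro e
      have : h * (a * b) * h⁻¹ = h * (b * a) * h⁻¹ := by
        calc h * (a * b) * h⁻¹ = h * a * h⁻¹ * (h * b * h⁻¹) := by group
          _ = h * b * h⁻¹ * (h * a * h⁻¹) := e
          _ = h * (b * a) * h⁻¹ := by group
      simpa using this
    · intro e
      calc h * a * h⁻¹ * (h * b * h⁻¹) = h * (a * b) * h⁻¹ := by group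
        _ = h * (b * a) * h⁻¹ := by rw [e]
        _ = h * b * h⁻¹ * (h * a * h⁻¹) := by group
  by_cases h1 : a * b = b * a
  · rw [if_pos h1, if_pos (e.2 h1)]
  · rw [if_neg h1, if_neg (fun h' => h1 (e.1 h'))]

section Z

variable {z : H} (zc : ∀ h : H, h * z = z * h) (z2 : z * z = 1)

include z2 in
theorem Sg.symm {a b : H} (h : Sg z a b) : Sg z b a := by
  rcases h with h | h
  · exact Or.inl h.symm
  · right
    rw [h, ← mul_assoc, z2, one_mul]

include zc z2 in
theorem Sg.mul_left {a b c : H} (h1 : Sg z a c) (h2 : Sg z b c) : Sg z (a * b) c := by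
  rcases h1 with h1 | h1 <;> rcases h2 with h2 | h2
  · left; rw [mul_assoc, h2, ← mul_assoc, h1, mul_assoc]
  · right
    rw [mul_assoc, h2, ← mul_assoc, zc a, mul_assoc, ← mul_assoc a c b, h1, mul_assoc]
  · right
    rw [mul_assoc, h2, ← mul_assoc, h1, mul_assoc, mul_assoc]
  · left
    rw [mul_assoc, h2, ← mul_assoc, zc a, mul_assoc, ← mul_assoc a c b, h1, ← mul_assoc, ← mul_assoc, z2,
      one_mul, mul_assoc]

include zc in
theorem Sg.z_left (b : H) : Sg z z b := Or.inl (zc b).symm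

include zc z2 in
theorem br_mul_left {a b c : H} (z1 : z ≠ 1) (h1 : Sg z a c) (h2 : Sg z b c) :
    br (a * b) c = br a c + br b c := by
  rcases h1 with h1 | h1 <;> rcases h2 with h2 | h2
  · rw [br_eq_zero.2 h1, br_eq_zero.2 h2, br_eq_zero.2 (by rw [mul_assoc, h2, ← mul_assoc, h1, mul_assoc])]
    rfl
  · have hb : br b c = 1 := by
      rw [br_ne_zero, h2]
      intro h; exact z1 (by simpa using h)
    rw [br_eq_zero.2 h1, hb, zero_add, br_ne_zero]
    intro h
    have h3 : a * b * c = z * (c * (a * b)) := by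
      rw [mul_assoc, h2, ← mul_assoc, zc a, mul_assoc, ← mul_assoc a c b, h1, mul_assoc]
    rw [h3] at h
    exact z1 (by simpa using h)
  · have ha : br a c = 1 := by
      rw [br_ne_zero, h1]
      intro h; exact z1 (by simpa using h)
    rw [br_eq_zero.2 h2, ha, add_zero, br_ne_zero]
    intro h
    have h3 : a * b * c = z * (c * (a * b)) := by
      rw [mul_assoc, h2, ← mul_assoc, h1, mul_assoc, mul_assoc]
    rw [h3] at h
    exact z1 (by simpa using h)
  · have ha : br a c = 1 := by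
      rw [br_ne_zero, h1]
      intro h; exact z1 (by simpa using h)
    have hb : br b c = 1 := by
      rw [br_ne_zero, h2]
      intro h; exact z1 (by simpa using h)
    have h3 : a * b * c = c * (a * b) := by
      rw [mul_assoc, h2, ← mul_assoc, zc a, mul_assoc, ← mul_assoc a c b, h1, ← mul_assoc, ← mul_assoc, z2,
        one_mul, mul_assoc]
    rw [br_eq_zero.2 h3, ha, hb]
    rfl

include zc z2 in
theorem Sg.mul_right {a b c : H} (h1 : Sg z a b) (h2 : Sg z a c) : Sg z a (b * c) :=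
  ((h1.symm z2).mul_left zc z2 (h2.symm z2)).symm z2

include zc z2 in
theorem br_mul_right {a b c : H} (z1 : z ≠ 1) (h1 : Sg z a b) (h2 : Sg z a c) :
    br a (b * c) = br a b + br a c := by
  rw [br_symm, br_mul_left zc z2 z1 (h1.symm z2) (h2.symm z2), br_symm b, br_symm c]

include zc in
theorem Sg.conj (h : H) {a b : H} (h1 : Sg z a b) : Sg z (h * a * h⁻¹) (h * b * h⁻¹) := by
  rcases h1 with h1 | h1
  · left
    calc h * a * h⁻¹ * (h * b * h⁻¹) = h * (a * b) * h⁻¹ := by group
      _ = h * (b * a) * h⁻¹ := by rw [h1]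
      _ = h * b * h⁻¹ * (h * a * h⁻¹) := by group
  · right
    calc h * a * h⁻¹ * (h * b * h⁻¹) = h * (a * b) * h⁻¹ := by group
      _ = h * (z * (b * a)) * h⁻¹ := by rw [h1]
      _ = (h * z) * (b * a) * h⁻¹ := by group
      _ = z * (h * (b * a) * h⁻¹) := by rw [zc]; group
      _ = z * (h * b * h⁻¹ * (h * a * h⁻¹)) := by group

include zc z2 in
theorem Sg.inv_left {a b : H} (h1 : Sg z a b) : Sg z a⁻¹ b := by
  rcases h1 with h1 | h1
  · left
    calc a⁻¹ * b = a⁻¹ * (b * a) * a⁻¹ := by group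
      _ = a⁻¹ * (a * b) * a⁻¹ := by rw [h1]
      _ = b * a⁻¹ := by group
  · right
    have h2 : b * a = z * (a * b) := by rw [h1, ← mul_assoc, z2, one_mul]
    calc a⁻¹ * b = a⁻¹ * (b * a) * a⁻¹ := by group
      _ = a⁻¹ * (z * (a * b)) * a⁻¹ := by rw [h2]
      _ = (a⁻¹ * z) * (a * b) * a⁻¹ := by group
      _ = z * (b * a⁻¹) := by rw [zc]; group

include zc z2 in
theorem br_inv_left {a b : H} (z1 : z ≠ 1) (h1 : Sg z a b) : br a⁻¹ b = br a b := by
  have h := br_mul_left zc z2 z1 (h1.inv_left zc z2) h1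
  rw [inv_mul_cancel, br_eq_zero.2 (by simp : (1 : H) * b = b * 1)] at h
  have : br a⁻¹ b = - br a b := by linear_combination -h
  rw [this, ZMod.neg_eq_self_mod_two]

/-- `z` to a bit. -/
def zp (z : H) (c : ZMod 2) : H := if c = 0 then 1 else z

theorem zp_zero : zp z 0 = 1 := if_pos rfl

theorem zp_one : zp z 1 = z := if_neg one_ne_zero

theorem bit_cases (c : ZMod 2) : c = 0 ∨ c = 1 := by revert c; decide

include z2 in
theorem zp_add (c d : ZMod 2) : zp z (c + d) = zp z c * zp z d := by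
  rcases bit_cases c with rfl | rfl <;> rcases bit_cases d with rfl | rfl
  · simp [zp_zero]
  · simp [zp_zero, zp_one]
  · simp [zp_zero, zp_one]
  · rw [zp_one, z2, show (1 + 1 : ZMod 2) = 0 from rfl, zp_zero]

include zc in
theorem zp_comm (c : ZMod 2) (h : H) : h * zp z c = zp z c * h := by
  rcases bit_cases c with rfl | rfl
  · rw [zp_zero, mul_one, one_mul]
  · rw [zp_one, zc]

theorem zp_eq_one (z1 : z ≠ 1) {c : ZMod 2} : zp z c = 1 ↔ c = 0 := by
  rcases bit_cases c with rfl | rfl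
  · simp [zp_zero]
  · simp [zp_one, z1]

theorem Sg.eq (z1 : z ≠ 1) {a b : H} (h1 : Sg z a b) : a * b = zp z (br a b) * (b * a) := by
  rcases h1 with h | h
  · rw [br_eq_zero.2 h, zp_zero, one_mul, h]
  · have hb : br a b = 1 := by
      rw [br_ne_zero, h]
      intro h; exact z1 (by simpa using h)
    rw [hb, zp_one, h]

theorem Sg.conj_eq (z1 : z ≠ 1) {a b : H} (h1 : Sg z a b) : a * b * a⁻¹ = zp z (br a b) * b := by
  rw [h1.eq z1]; group

end Z

/-- **The configuration** `N = 4 ∘ 2^{1+4}`, `H / N ≅ S₆` faithful on `N / Z(N)`. -/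
structure Cf (N : Subgroup H) (z s : H) : Prop where
  normal : N.Normal
  card : Nat.card N = 64
  sN : s ∈ N
  s_sq : s * s = z
  z_sq : z * z = 1
  z_ne : z ≠ 1
  s_cen : ∀ n ∈ N, n * s = s * n
  sq : ∀ n ∈ N, n * n = 1 ∨ n * n = z
  comm : ∀ n ∈ N, ∀ m ∈ N, n * m = m * n ∨ n * m = z * (m * n)
  cen : ∀ n ∈ N, (∀ m ∈ N, n * m = m * n) → n ∈ zpowers s
  z_cen : ∀ h : H, h * z = z * h
  inv : ∃ h : H, h * s ≠ s * h
  iso : Nonempty (H ⧸ N ≃* Equiv.Perm (Fin 6))
  faith : ∀ h : H, (∀ n ∈ N, h * n * h⁻¹ * n⁻¹ ∈ zpowers s) → h ∈ N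

namespace Cf

variable {N : Subgroup H} {z s : H}

theorem zN (C : Cf N z s) : z ∈ N := by rw [← C.s_sq]; exact mul_mem C.sN C.sN

theorem conjN (C : Cf N z s) (h : H) {n : H} (hn : n ∈ N) : h * n * h⁻¹ ∈ N := C.normal.conj_mem n hn h

theorem sg (C : Cf N z s) {a b : H} (ha : a ∈ N) (hb : b ∈ N) : Sg z a b := C.comm a ha b hb

theorem s_inv (C : Cf N z s) : s⁻¹ = z * s := by
  rw [inv_eq_iff_mul_eq_one, ← C.z_cen s, ← mul_assoc, C.s_sq, C.z_sq]

theorem mem_zs (C : Cf N z s) {x : H} : x ∈ zpowers s ↔ x = 1 ∨ x = s ∨ x = z ∨ x = z * s := by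
  constructor
  · intro hx
    obtain ⟨k, rfl⟩ := mem_zpowers_iff.1 hx
    have h4 : s ^ (4 : ℤ) = 1 := by
      have : s ^ (4 : ℤ) = (s * s) * (s * s) := by
        rw [show (4 : ℤ) = 1 + 1 + (1 + 1) by norm_num]; simp only [zpow_add, zpow_one]
      rw [this, C.s_sq, C.z_sq]
    have h2 : s ^ (2 : ℤ) = z := by rw [← C.s_sq, zpow_two]
    have h3 : s ^ (3 : ℤ) = z * s := by
      rw [← C.s_sq, show (3 : ℤ) = 1 + 1 + 1 by norm_num]; simp only [zpow_add, zpow_one]
    have e : s ^ k = s ^ (k % 4) := by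
      conv_lhs => rw [← Int.mul_ediv_add_emod k 4, zpow_add, zpow_mul, h4, one_zpow, one_mul]
    have hk : 0 ≤ k % 4 ∧ k % 4 < 4 := ⟨Int.emod_nonneg _ (by norm_num), Int.emod_lt_of_pos _ (by norm_num)⟩
    rw [e]
    obtain h | h | h | h : k % 4 = 0 ∨ k % 4 = 1 ∨ k % 4 = 2 ∨ k % 4 = 3 := by omega
    · left; rw [h, zpow_zero]
    · right; left; rw [h, zpow_one]
    · right; right; left; rw [h, h2]
    · right; right; right; rw [h, h3]
  · rintro (rfl | rfl | rfl | rfl)
    · exact one_mem _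
    · exact mem_zpowers _
    · rw [← C.s_sq]; exact mul_mem (mem_zpowers _) (mem_zpowers _)
    · refine mul_mem ?_ (mem_zpowers _)
      rw [← C.s_sq]; exact mul_mem (mem_zpowers _) (mem_zpowers _)

theorem zs_le (C : Cf N z s) : zpowers s ≤ N := by
  rw [zpowers_le]; exact C.sN

theorem z_mem_zs (C : Cf N z s) : z ∈ zpowers s := C.mem_zs.2 (by simp)

theorem s_ne (C : Cf N z s) : s ≠ 1 := by
  intro h
  apply C.z_ne
  rw [← C.s_sq, h, one_mul]

theorem s_ne_z (C : Cf N z s) : s ≠ z := by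
  intro h
  apply C.z_ne
  have := C.s_sq
  rw [h, C.z_sq] at this
  exact this.symm

/-- `⟨s⟩` is normal: conjugation fixes or inverts `s`. -/
theorem conj_s (C : Cf N z s) (h : H) : h * s * h⁻¹ = s ∨ h * s * h⁻¹ = z * s := by
  have h1 : h * s * h⁻¹ ∈ zpowers s := by
    refine C.cen _ (C.conjN h C.sN) fun m hm => ?_
    have hm' : h⁻¹ * m * h ∈ N := by simpa using C.conjN h⁻¹ hm
    have := C.s_cen _ hm'
    calc h * s * h⁻¹ * m = h * (s * (h⁻¹ * m * h)) * h⁻¹ := by group
      _ = h * ((h⁻¹ * m * h) * s) * h⁻¹ := by rw [this]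
      _ = m * (h * s * h⁻¹) := by group
  rcases C.mem_zs.1 h1 with h2 | h2 | h2 | h2
  · exfalso
    apply C.s_ne
    simpa using h2
  · exact Or.inl h2
  · exfalso
    apply C.s_ne_z
    have : s = h⁻¹ * z * h := by rw [← h2]; group
    rw [this, C.z_cen h⁻¹]
    group
  · exact Or.inr h2

theorem sg_s (C : Cf N z s) (h : H) : Sg z h s := by
  rcases C.conj_s h with e | e
  · left
    calc h * s = h * s * h⁻¹ * h := by group
      _ = s * h := by rw [e]
  · right
    calc h * s = h * s * h⁻¹ * h := by group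
      _ = z * (s * h) := by rw [e, mul_assoc]

theorem zs_normal (C : Cf N z s) : (zpowers s).Normal := by
  constructor
  intro n hn g
  obtain ⟨k, rfl⟩ := mem_zpowers_iff.1 hn
  have : g * s ^ k * g⁻¹ = (g * s * g⁻¹) ^ k := by rw [conj_zpow]
  rw [this]
  refine zpow_mem ?_ k
  rcases C.conj_s g with e | e
  · rw [e]; exact mem_zpowers _
  · rw [e]; exact C.mem_zs.2 (by simp)

theorem z_normal (C : Cf N z s) : (zpowers z).Normal := by
  constructor
  intro n hn g
  obtain ⟨k, rfl⟩ := mem_zpowers_iff.1 hn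
  have : g * z ^ k * g⁻¹ = (g * z * g⁻¹) ^ k := by rw [conj_zpow]
  rw [this, C.z_cen, mul_assoc, mul_inv_cancel, mul_one]
  exact zpow_mem (mem_zpowers _) k

theorem mem_zz (C : Cf N z s) {x : H} : x ∈ zpowers z ↔ x = 1 ∨ x = z := by
  constructor
  · intro hx
    obtain ⟨k, rfl⟩ := mem_zpowers_iff.1 hx
    have h2 : z ^ (2 : ℤ) = 1 := by rw [zpow_two, C.z_sq]
    have e : z ^ k = z ^ (k % 2) := by
      conv_lhs => rw [← Int.mul_ediv_add_emod k 2, zpow_add, zpow_mul, h2, one_zpow, one_mul]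
    rw [e]
    rcases Int.emod_two_eq_zero_or_one k with h | h
    · left; rw [h, zpow_zero]
    · right; rw [h, zpow_one]
  · rintro (rfl | rfl)
    · exact one_mem _
    · exact mem_zpowers _

end Cf

end Cfsg.Agent.H336.Co3
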