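import Cfsg.Agent.H336.Co3.JSq

/-!
# The decomposition `C = N J`, the flag stabiliser, and uniqueness of `N` in it (helper336)
-/

set_option autoImplicit false

open Subgroup

namespace Cfsg.Agent.H336.Co3

variable {H : Type*} [Group H]

/-- `h` fixes each `e k` mod `z` -/
def Fx (z : H) (e : Fin 3 → H) (h : H) : Prop := ∀ k, ∃ c, h * e k * h⁻¹ = zp z c * e k

/-- `h` swaps `e 0`, `e 1` and fixes `e 2` mod `z` -/
def Sw (z : H) (e : Fin 3 → H) (h : H) : Prop := ∀ k, ∃ c, h * e k * h⁻¹ = zp z c * e (Cf.swp k)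

namespace Cf

variable {N : Subgroup H} {z s : H} {e : Fin 3 → H} {g1 g2 : H}

theorem zmod_add_self (c : ZMod 2) : c + c = 0 := by revert c; decide

/-- `J` surjects onto `F_2^3` -/
theorem exists_J [Finite H] (C : Cf N z s) (E : Tri N z s e g1 g2) (c : Fin 3 → ZMod 2) :
    ∃ j, JJ N z e j ∧ ∀ k, br j (e k) = c k := by
  obtain ⟨d2, hd2, d20, d21, d22⟩ := C.exists_D E
  obtain ⟨F, hF⟩ := C.exists_F E
  have hcs : ∀ k, ∃ j, cyc j = k := by decide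
  have hJc := fun {t : H} (ht : JJ N z e t) => C.J_conj hcs (C.P3_cyc E) hF ht
  obtain ⟨hd0, b0⟩ := hJc hd2
  obtain ⟨d0, hd0e⟩ : ∃ d0, d0 = F * d2 * F⁻¹ := ⟨_, rfl⟩
  rw [← hd0e] at hd0 b0
  have d01 : br d0 (e 1) = 0 := (b0 0).trans d20
  have d02 : br d0 (e 2) = 0 := (b0 1).trans d21
  have d00 : br d0 (e 0) = 1 := (b0 2).trans d22
  obtain ⟨hd1, b1⟩ := hJc hd0
  obtain ⟨d1, hd1e⟩ : ∃ d1, d1 = F * d0 * F⁻¹ := ⟨_, rfl⟩
  rw [← hd1e] at hd1 b1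
  have d11 : br d1 (e 1) = 1 := (b1 0).trans d00
  have d12 : br d1 (e 2) = 0 := (b1 1).trans d01
  have d10 : br d1 (e 0) = 0 := (b1 2).trans d02
  have bmul : ∀ {a b : H}, JJ N z e a → JJ N z e b → ∀ k, br (a * b) (e k) = br a (e k) + br b (e k) := by
    intro a b ha hb k
    exact br_mul_left C.z_cen C.z_sq C.z_ne (ha.1 k) (hb.1 k)
  have hpJ : ∀ r, JJ N z e r → ∀ c, JJ N z e (pw r c) := by
    intro r hr c
    rcases bit_cases c with rfl | rfl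
    · rw [pw_zero]; exact C.N_J E (one_mem _) (fun k => one_br _)
    · rw [pw_one]; exact hr
  refine ⟨pw d0 (c 0) * pw d1 (c 1) * pw d2 (c 2),
    C.J_mul E (C.J_mul E (hpJ _ hd0 _) (hpJ _ hd1 _)) (hpJ _ hd2 _), fun k => ?_⟩
  rw [bmul (C.J_mul E (hpJ _ hd0 _) (hpJ _ hd1 _)) (hpJ _ hd2 _), bmul (hpJ _ hd0 _) (hpJ _ hd1 _),
    br_pw_left, br_pw_left, br_pw_left]
  fin_cases k
  · show c 0 * br d0 (e 0) + c 1 * br d1 (e 0) + c 2 * br d2 (e 0) = c 0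
    rw [d00, d10, d20]; ring
  · show c 0 * br d0 (e 1) + c 1 * br d1 (e 1) + c 2 * br d2 (e 1) = c 1
    rw [d01, d11, d21]; ring
  · show c 0 * br d0 (e 2) + c 1 * br d1 (e 2) + c 2 * br d2 (e 2) = c 2
    rw [d02, d12, d22]; ring

/-- commutator bit with a `z`-multiple, no hypothesis -/
theorem br_zp_any (C : Cf N z s) (c : ZMod 2) (y w : H) : br y (zp z c * w) = br y w := by
  rcases bit_cases c with rfl | rfl
  · rw [zp_zero, one_mul]
  · rw [zp_one]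
    have : y * (z * w) = z * w * y ↔ y * w = w * y := by
      constructor
      · intro h
        have : z * (y * w) = z * (w * y) := by
          calc z * (y * w) = (z * y) * w := by group
            _ = y * (z * w) := by rw [← C.z_cen y]; group
            _ = z * (w * y) := by rw [h]; group
        exact mul_left_cancel this
      · intro h
        calc y * (z * w) = (y * z) * w := by group
          _ = z * (y * w) := by rw [C.z_cen y]; group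
          _ = z * w * y := by rw [h]; group
    rcases bit_cases (br y w) with hb | hb
    · rw [hb, br_eq_zero, this]; exact br_eq_zero.1 hb
    · rw [hb, br_ne_zero, Ne, this]; exact br_ne_zero.1 hb

theorem sg_iff (C : Cf N z s) {t a : H} : Sg z t a ↔ ∃ c, t * a * t⁻¹ = zp z c * a :=
  ⟨fun h => ⟨_, h.conj_eq C.z_ne⟩, fun ⟨_, h⟩ => C.sg_of_conj h⟩

theorem fx_iff (C : Cf N z s) {h : H} : Fx z e h ↔ ∀ k, Sg z h (e k) :=
  ⟨fun hh k => C.sg_iff.2 (hh k), fun hh k => C.sg_iff.1 (hh k)⟩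

/-- **`C = N J`.** -/
theorem CJ [Finite H] (C : Cf N z s) (E : Tri N z s e g1 g2) {t : H} (ht : ∀ k, Sg z t (e k)) :
    ∃ n ∈ N, ∃ j, JJ N z e j ∧ t = n * j := by
  have f := E.fr
  have key : ∀ g ∈ N, ∀ k, br (t * g * t⁻¹ * g⁻¹) (e k) = 0 := by
    intro g hg k
    obtain ⟨c, hc⟩ := C.sg_iff.1 (ht k)
    have h1 : br (t * g * t⁻¹) (e k) = br g (e k) := by
      rw [← br_conj t g (e k), hc, C.br_zp_any]
    rw [C.brl (C.conjN t hg) (inv_mem hg) (E.m k), h1,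
      br_inv_left C.z_cen C.z_sq C.z_ne (C.sg hg (E.m k)), zmod_add_self]
  set w1 := t * g1 * t⁻¹ * g1⁻¹ with hw1
  set w2 := t * g2 * t⁻¹ * g2⁻¹ with hw2
  have w1N : w1 ∈ N := mul_mem (C.conjN t f.m2) (inv_mem f.m2)
  have w2N : w2 ∈ N := mul_mem (C.conjN t f.m4) (inv_mem f.m4)
  have hw1e : t * g1 * t⁻¹ = w1 * g1 := by rw [hw1]; group
  have hw2e : t * g2 * t⁻¹ = w2 * g2 := by rw [hw2]; group
  have w12 : br w1 w2 = 0 := by
    rw [C.br_eq_Om f w1N w2N]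
    unfold Om kap
    simp only
    rw [key g1 f.m2 0, key g1 f.m2 1, key g2 f.m4 0, key g2 f.m4 1]
    ring
  have hsym : br w1 g2 = br w2 g1 := by
    have h1 : br (t * g1 * t⁻¹) (t * g2 * t⁻¹) = 0 := by rw [br_conj]; exact f.d12
    rw [hw1e, hw2e, C.brl w1N f.m2 (mul_mem w2N f.m4), C.brr w1N w2N f.m4, C.brr f.m2 w2N f.m4, w12, f.d12,
      br_symm g1 w2] at h1
    revert h1
    generalize br w1 g2 = x; generalize br w2 g1 = y
    revert x y; decide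
  obtain ⟨j, hj, hjb⟩ := C.exists_J E ![br w1 g1 + br w1 g2, br w2 g2 + br w1 g2, br w1 g2]
  have j0 : br j (e 0) = br w1 g1 + br w1 g2 := hjb 0
  have j1 : br j (e 1) = br w2 g2 + br w1 g2 := hjb 1
  have j2 : br j (e 2) = br w1 g2 := hjb 2
  have brP : ∀ (A : Fin 3 → ZMod 2) (x : H), x ∈ N → br (P3 e A) x =
      A 0 * br (e 0) x + A 1 * br (e 1) x + A 2 * br (e 2) x := by
    intro A x hx
    rw [br_symm, C.br_P3 (fun k => C.sg hx (E.m k)), br_symm x (e 0), br_symm x (e 1), br_symm x (e 2)]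
  have b0g1 : br (e 0) g1 = 1 := f.b11
  have b1g1 : br (e 1) g1 = 0 := by rw [br_symm]; exact f.c21
  have b2g1 : br (e 2) g1 = 1 := by rw [br_symm]; exact C.brg12 E
  have b0g2 : br (e 0) g2 = 0 := f.c12
  have b1g2 : br (e 1) g2 = 1 := f.b22
  have b2g2 : br (e 2) g2 = 1 := by rw [br_symm]; exact C.brg22 E
  -- compare the actions
  have hg : ∀ g ∈ N, ∀ w, w ∈ N → t * g * t⁻¹ = w * g → (∀ k, br w (e k) = 0) →
      br w g1 = br j (e 0) * br g (e 0) + br j (e 2) * br g (e 2) →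
      br w g2 = br j (e 1) * br g (e 1) + br j (e 2) * br g (e 2) →
      (t * g * t⁻¹) * (j * g * j⁻¹)⁻¹ ∈ zpowers s := by
    intro g hg w hw hwe hw0 h1 h2
    obtain ⟨c, hc⟩ := hj.2 g hg
    set A : Fin 3 → ZMod 2 := fun k => br j (e k) * br g (e k) with hA
    have hPN : P3 e A ∈ N := C.P3N E A
    have h3 : w * (zp z c * P3 e A)⁻¹ ∈ zpowers s := by
      rw [← C.kap_eq_iff f hw (mul_mem (C.zpN c) hPN)]
      have hz : ∀ x ∈ N, br (zp z c * P3 e A) x = br (P3 e A) x := by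
        intro x hx
        rw [C.brl (C.zpN c) hPN hx, C.br_zp, zero_add]
      unfold kap
      rw [hz g1 f.m2, hz (e 0) f.m1, hz g2 f.m4, hz (e 1) f.m3, brP A g1 f.m2, brP A (e 0) f.m1, brP A g2 f.m4,
        brP A (e 1) f.m3, C.bree E, C.bree E, C.bree E, C.bree E, C.bree E, C.bree E, b0g1, b1g1, b2g1, b0g2,
        b1g2, b2g2, hw0, hw0, h1, h2]
      simp only [hA, mul_one, mul_zero, add_zero, zero_add]
    rw [hwe, hc]
    have : w * g * (zp z c * P3 e A * g)⁻¹ = w * (zp z c * P3 e A)⁻¹ := by group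
    rw [this]; exact h3
  have a1 : (t * g1 * t⁻¹) * (j * g1 * j⁻¹)⁻¹ ∈ zpowers s := by
    refine hg g1 f.m2 w1 w1N hw1e (key g1 f.m2) ?_ ?_
    · rw [j0, j2, C.brg10 E, C.brg12 E]
      generalize br w1 g1 = x; generalize br w1 g2 = y
      revert x y; decide
    · rw [j1, j2, C.brg11 E, C.brg12 E]; ring
  have a2 : (t * g2 * t⁻¹) * (j * g2 * j⁻¹)⁻¹ ∈ zpowers s := by
    refine hg g2 f.m4 w2 w2N hw2e (key g2 f.m4) ?_ ?_
    · rw [j0, j2, C.brg20 E, C.brg22 E, ← hsym]; ring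
    · rw [j1, j2, C.brg21 E, C.brg22 E]
      generalize br w2 g2 = x; generalize br w1 g2 = y
      revert x y; decide
  have ae : ∀ k, (t * e k * t⁻¹) * (j * e k * j⁻¹)⁻¹ ∈ zpowers s := by
    intro k
    obtain ⟨c, hc⟩ := C.sg_iff.1 (ht k)
    obtain ⟨c', hc'⟩ := C.sg_iff.1 (hj.1 k)
    rw [hc, hc']
    have : zp z c * e k * (zp z c' * e k)⁻¹ = zp z c * (zp z c')⁻¹ := by group
    rw [this]
    exact mul_mem (C.zp_zs c) (inv_mem (C.zp_zs c'))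
  have conv : ∀ x : H, (t * x * t⁻¹) * (j * x * j⁻¹)⁻¹ ∈ zpowers s →
      (j⁻¹ * t) * x * (j⁻¹ * t)⁻¹ * x⁻¹ ∈ zpowers s := by
    intro x hx
    have h1 := C.zs_normal.conj_mem _ hx j⁻¹
    have : j⁻¹ * ((t * x * t⁻¹) * (j * x * j⁻¹)⁻¹) * j⁻¹⁻¹ = (j⁻¹ * t) * x * (j⁻¹ * t)⁻¹ * x⁻¹ := by group
    rwa [this] at h1
  have hN : j⁻¹ * t ∈ N := C.mem_N_of_frame f (conv _ (ae 0)) (conv _ a1) (conv _ (ae 1)) (conv _ a2)
  refine ⟨j * (j⁻¹ * t) * j⁻¹, C.conjN j hN, j, hj, by group⟩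

theorem zp_inv (C : Cf N z s) (c : ZMod 2) : (zp z c)⁻¹ = zp z c := by
  rw [inv_eq_iff_mul_eq_one, C.zpa, zmod_add_self, zp_zero]

theorem fx_of_two (C : Cf N z s) (E : Tri N z s e g1 g2) {t : H} (h0 : ∃ c, t * e 0 * t⁻¹ = zp z c * e 0)
    (h2 : ∃ c, t * e 2 * t⁻¹ = zp z c * e 2) : Fx z e t := by
  have hs0 := C.sg_iff.2 h0
  have hs2 := C.sg_iff.2 h2
  have h1 : e 1 = (e 0)⁻¹ * s * (e 2)⁻¹ := by rw [← E.prod]; group
  have hs1 : Sg z t (e 1) := by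
    rw [h1]
    have i0 : Sg z t (e 0)⁻¹ := ((hs0.symm C.z_sq).inv_left C.z_cen C.z_sq).symm C.z_sq
    have i2 : Sg z t (e 2)⁻¹ := ((hs2.symm C.z_sq).inv_left C.z_cen C.z_sq).symm C.z_sq
    exact (i0.mul_right C.z_cen C.z_sq (C.sg_s t)).mul_right C.z_cen C.z_sq i2
  rw [C.fx_iff]
  intro k
  fin_cases k
  · exact hs0
  · exact hs1
  · exact hs2

theorem sw_of_two (C : Cf N z s) (E : Tri N z s e g1 g2) {t : H} (h0 : ∃ c, t * e 0 * t⁻¹ = zp z c * e 1)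
    (h2 : ∃ c, t * e 2 * t⁻¹ = zp z c * e 2) : Sw z e t := by
  obtain ⟨c0, h0⟩ := h0
  obtain ⟨c2, h2⟩ := h2
  obtain ⟨c3, h3⟩ := C.sg_iff.1 (C.sg_s t)
  have h1 : e 1 = (e 0)⁻¹ * s * (e 2)⁻¹ := by rw [← E.prod]; group
  have h1' : e 0 = (e 1)⁻¹ * s * (e 2)⁻¹ := by
    rw [← E.prod, (C.ecomm E 0 1).eq]; group
  have h4 : t * e 1 * t⁻¹ = zp z (c0 + c3 + c2) * e 0 := by
    calc t * e 1 * t⁻¹ = (t * e 0 * t⁻¹)⁻¹ * (t * s * t⁻¹) * (t * e 2 * t⁻¹)⁻¹ := by rw [h1]; group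
      _ = (e 1)⁻¹ * (zp z c0)⁻¹ * (zp z c3 * s) * ((e 2)⁻¹ * (zp z c2)⁻¹) := by rw [h0, h2, h3]; group
      _ = ((e 1)⁻¹ * zp z (c0 + c3)) * s * ((e 2)⁻¹ * zp z c2) := by
          rw [C.zp_inv, C.zp_inv, ← C.zpa]; group
      _ = zp z (c0 + c3) * ((e 1)⁻¹ * s * zp z c2) * (e 2)⁻¹ := by
          rw [C.zpc _ (e 1)⁻¹, C.zpc _ (e 2)⁻¹]; group
      _ = zp z (c0 + c3) * zp z c2 * ((e 1)⁻¹ * s * (e 2)⁻¹) := by rw [C.zpc _ ((e 1)⁻¹ * s)]; group
      _ = zp z (c0 + c3 + c2) * e 0 := by rw [C.zpa, ← h1']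
  intro k
  fin_cases k
  · exact ⟨c0, h0⟩
  · exact ⟨_, h4⟩
  · exact ⟨c2, h2⟩

theorem fx_mul (C : Cf N z s) {a b : H} (ha : Fx z e a) (hb : Fx z e b) : Fx z e (a * b) := by
  rw [C.fx_iff] at ha hb ⊢
  exact fun k => (ha k).mul_left C.z_cen C.z_sq (hb k)

theorem fx_inv (C : Cf N z s) {a : H} (ha : Fx z e a) : Fx z e a⁻¹ := by
  rw [C.fx_iff] at ha ⊢
  exact fun k => (ha k).inv_left C.z_cen C.z_sq

theorem conj_zp (C : Cf N z s) (a : H) (c : ZMod 2) (x : H) : a * (zp z c * x) * a⁻¹ = zp z c * (a * x * a⁻¹) := by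
  calc a * (zp z c * x) * a⁻¹ = (a * zp z c) * x * a⁻¹ := by group
    _ = _ := by rw [C.zpc]; group

theorem fx_sw (C : Cf N z s) {a b : H} (ha : Fx z e a) (hb : Sw z e b) : Sw z e (a * b) := by
  intro k
  obtain ⟨c, hc⟩ := hb k
  obtain ⟨d, hd⟩ := ha (swp k)
  refine ⟨c + d, ?_⟩
  calc a * b * e k * (a * b)⁻¹ = a * (b * e k * b⁻¹) * a⁻¹ := by group
    _ = zp z (c + d) * e (swp k) := by rw [hc, C.conj_zp, hd, ← mul_assoc, C.zpa]

theorem sw_fx (C : Cf N z s) {a b : H} (ha : Sw z e a) (hb : Fx z e b) : Sw z e (a * b) := by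
  intro k
  obtain ⟨c, hc⟩ := hb k
  obtain ⟨d, hd⟩ := ha k
  refine ⟨c + d, ?_⟩
  calc a * b * e k * (a * b)⁻¹ = a * (b * e k * b⁻¹) * a⁻¹ := by group
    _ = zp z (c + d) * e (swp k) := by rw [hc, C.conj_zp, hd, ← mul_assoc, C.zpa]

theorem swp_swp (k : Fin 3) : swp (swp k) = k := by revert k; decide

theorem sw_sw (C : Cf N z s) {a b : H} (ha : Sw z e a) (hb : Sw z e b) : Fx z e (a * b) := by
  intro k
  obtain ⟨c, hc⟩ := hb k
  obtain ⟨d, hd⟩ := ha (swp k)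
  refine ⟨c + d, ?_⟩
  rw [swp_swp] at hd
  calc a * b * e k * (a * b)⁻¹ = a * (b * e k * b⁻¹) * a⁻¹ := by group
    _ = zp z (c + d) * e k := by rw [hc, C.conj_zp, hd, ← mul_assoc, C.zpa]

theorem sw_inv (C : Cf N z s) {a : H} (ha : Sw z e a) : Sw z e a⁻¹ := by
  intro k
  obtain ⟨c, hc⟩ := ha (swp k)
  rw [swp_swp] at hc
  refine ⟨c, ?_⟩
  have : e (swp k) = a⁻¹ * (zp z c * e k) * a := by rw [← hc]; group
  have h2 : a⁻¹ * (zp z c * e k) * a = zp z c * (a⁻¹ * e k * a) := by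
    have := C.conj_zp a⁻¹ c (e k)
    simpa using this
  rw [h2] at this
  rw [this, ← mul_assoc, C.zpa, zmod_add_self, zp_zero, one_mul, inv_inv]

/-- the flag stabiliser -/
def FG (C : Cf N z s) (e : Fin 3 → H) : Subgroup H where
  carrier := {h | Fx z e h ∨ Sw z e h}
  one_mem' := Or.inl fun k => ⟨0, by rw [zp_zero]; group⟩
  mul_mem' := by
    rintro a b (ha | ha) (hb | hb)
    · exact Or.inl (C.fx_mul ha hb)
    · exact Or.inr (C.fx_sw ha hb)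
    · exact Or.inr (C.sw_fx ha hb)
    · exact Or.inl (C.sw_sw ha hb)
  inv_mem' := by
    rintro a (ha | ha)
    · exact Or.inl (C.fx_inv ha)
    · exact Or.inr (C.sw_inv ha)

theorem mem_FG (C : Cf N z s) {h : H} : h ∈ C.FG e ↔ Fx z e h ∨ Sw z e h := Iff.rfl

theorem FG_two [Finite H] (C : Cf N z s) (E : Tri N z s e g1 g2) : IsPGroup 2 (C.FG e) := by
  rintro ⟨h, hh⟩
  have h2 : Fx z e (h * h) := by
    rcases hh with hh | hh
    · exact C.fx_mul hh hh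
    · exact C.sw_sw hh hh
  obtain ⟨n, hn, j, hj, e1⟩ := C.CJ E (C.fx_iff.1 h2)
  have h4 : (h * h) * (h * h) ∈ N := by
    obtain ⟨c, hc⟩ := C.J_sq_z E hj
    have : (h * h) * (h * h) = n * (j * n * j⁻¹) * (j * j) := by rw [e1]; group
    rw [this, hc]
    exact mul_mem (mul_mem hn (C.conjN j hn)) (C.zpN c)
  have h5 : ((h * h) * (h * h)) ^ 64 = 1 := by
    have := pow_card_eq_one' (x := (⟨(h * h) * (h * h), h4⟩ : ↥N))
    rw [C.card] at this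
    exact congrArg Subtype.val this
  refine ⟨8, Subtype.ext ?_⟩
  show h ^ (2 ^ 8) = 1
  have : h ^ (2 ^ 8) = ((h * h) * (h * h)) ^ 64 := by
    rw [← pow_two, ← pow_two, ← pow_mul, ← pow_mul]
    norm_num
  rw [this, h5]

theorem N_le_FG (C : Cf N z s) (E : Tri N z s e g1 g2) : N ≤ C.FG e :=
  fun n hn => Or.inl (C.fx_iff.2 fun k => C.sg hn (E.m k))

theorem J_le_FG (C : Cf N z s) {j : H} (hj : JJ N z e j) : j ∈ C.FG e := Or.inl (C.fx_iff.2 hj.1)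

end Cf

end Cfsg.Agent.H336.Co3
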