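import Cfsg.Agent.H336.Co3.Par

/-!
# Squares of elements of `J` lie in `⟨z⟩` (helper336)
-/

set_option autoImplicit false

open Subgroup

namespace Cfsg.Agent.H336.Co3

theorem kap3 {R : Type*} [Group R] {a b c κ : R} (ha : a * a = 1) (hb : b * b = 1) (hc : c * c = 1)
    (hκ : κ * κ = 1) (hz : ∀ x, x * κ = κ * x) (h1 : c * a = κ * (a * c)) (h2 : a * b = κ * (b * a))
    (h3 : b * c = κ * (c * b)) : a * b * c * (a * b * c) = κ := by
  have h2' : b * a = κ * (a * b) := by rw [h2, ← mul_assoc, hκ, one_mul]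
  have h3' : c * b = κ * (b * c) := by rw [h3, ← mul_assoc, hκ, one_mul]
  calc a * b * c * (a * b * c) = a * b * (c * a) * (b * c) := by group
    _ = (a * b * κ) * (a * c) * (b * c) := by rw [h1]; group
    _ = κ * (a * (b * a)) * c * (b * c) := by rw [hz (a * b)]; group
    _ = κ * (a * κ) * a * b * c * (b * c) := by rw [h2']; group
    _ = (κ * κ) * (a * a) * b * (c * b) * c := by rw [hz a]; group
    _ = (b * κ) * (b * c) * c := by rw [hκ, ha, h3']; group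
    _ = κ * (b * b) * (c * c) := by rw [hz b]; group
    _ = κ := by rw [hb, hc, mul_one, mul_one]

variable {H : Type*} [Group H]

namespace Cf

variable {N : Subgroup H} {z s : H} {e : Fin 3 → H} {g1 g2 : H}

/-- refinement: a congruence mod `⟨s⟩` with the right square is a congruence mod `z` -/
theorem refine_z (C : Cf N z s) {t x u v : H} (hx : x ∈ N) (hv : v ∈ N) (hu : u ∈ zpowers s)
    (h : t * x * t⁻¹ = u * v * x) (hvv : v * v = zp z (br x v)) : ∃ c, u = zp z c := by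
  have hx2 : ∃ d, x * x = zp z d := by
    rcases C.sq x hx with h | h
    · exact ⟨0, by rw [h, zp_zero]⟩
    · exact ⟨1, by rw [h, zp_one]⟩
  obtain ⟨d, hd⟩ := hx2
  have e1 : (t * x * t⁻¹) * (t * x * t⁻¹) = zp z d := by
    calc (t * x * t⁻¹) * (t * x * t⁻¹) = t * (x * x) * t⁻¹ := by group
      _ = t * zp z d * t⁻¹ := by rw [hd]
      _ = zp z d := by rw [C.zpc, mul_inv_cancel_right]
  have hc : Commute u (v * x) := C.zs_comm hu (C.s_cen _ (mul_mem hv hx)).symm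
  have e2 : (u * v * x) * (u * v * x) = u * u * zp z d := by
    calc (u * v * x) * (u * v * x) = u * ((v * x) * u) * (v * x) := by group
      _ = u * (u * (v * x)) * (v * x) := by rw [hc.eq]
      _ = u * u * (v * (x * v) * x) := by group
      _ = u * u * (v * (zp z (br x v) * (v * x)) * x) := by rw [(C.sg hx hv).eq C.z_ne]
      _ = u * u * ((v * zp z (br x v)) * v * (x * x)) := by group
      _ = u * u * (zp z (br x v) * (v * v) * (x * x)) := by rw [C.zpc _ v]; group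
      _ = u * u * zp z d := by
          rw [hvv, C.zpa, hd]
          have : br x v + br x v = 0 := by
            have h : ∀ c : ZMod 2, c + c = 0 := by decide
            exact h _
          rw [this, zp_zero, one_mul]
  rw [h, e2] at e1
  have e3 : u * u = 1 := by
    have : u * u * zp z d = 1 * zp z d := by rw [e1, one_mul]
    exact mul_right_cancel this
  rcases C.mem_zs.1 hu with h1 | h1 | h1 | h1
  · exact ⟨0, by rw [zp_zero, h1]⟩
  · exfalso; rw [h1, C.s_sq] at e3; exact C.z_ne e3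
  · exact ⟨1, by rw [zp_one, h1]⟩
  · exfalso
    rw [h1] at e3
    have : z * s * (z * s) = z := by
      calc z * s * (z * s) = z * (s * z) * s := by group
        _ = z * (z * s) * s := by rw [C.z_cen s]
        _ = (z * z) * (s * s) := by group
        _ = z := by rw [C.z_sq, C.s_sq, one_mul]
    rw [this] at e3
    exact C.z_ne e3

theorem sg_of_conj (_ : Cf N z s) {t a : H} {c : ZMod 2} (h : t * a * t⁻¹ = zp z c * a) : Sg z t a := by
  have h1 : t * a = zp z c * a * t := by rw [← h]; group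
  rcases bit_cases c with rfl | rfl
  · left; rw [h1, zp_zero, one_mul]
  · right; rw [h1, zp_one, mul_assoc]

/-- existence of `D ∈ J` inducing the transvection with centre `e 2`, with the right signs -/
theorem exists_D [Finite H] (C : Cf N z s) (E : Tri N z s e g1 g2) :
    ∃ t, JJ N z e t ∧ br t (e 0) = 0 ∧ br t (e 1) = 0 ∧ br t (e 2) = 1 := by
  have f := E.fr
  obtain ⟨t, ht⟩ := C.exists_Tv E
  have hodd := C.Tv_odd E ht
  have hsg : ∀ r, Tv N s (e 2) r → ∀ k, Sg z r (e k) := by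
    intro r hr k
    have h1 := hr (e k) (E.m k)
    rw [C.bree E, pw_zero, one_mul] at h1
    obtain ⟨c, hc⟩ := C.mod_z (E.m k) (by
      calc r * e k * r⁻¹ * (r * e k * r⁻¹) = r * (e k * e k) * r⁻¹ := by group
        _ = z := by rw [E.sq k, C.z_cen, mul_inv_cancel_right]) (E.sq k) h1
    exact C.sg_of_conj hc
  set n := pw g1 (br t (e 0)) * pw g2 (br t (e 1)) with hn
  have hnN : n ∈ N := mul_mem (pwN f.m2 _) (pwN f.m4 _)
  have hn0 : br n (e 0) = br t (e 0) := by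
    rw [hn, C.brl (pwN f.m2 _) (pwN f.m4 _) (E.m 0), br_pw_left, br_pw_left, C.brg10 E, C.brg20 E, mul_one,
      mul_zero, add_zero]
  have hn1 : br n (e 1) = br t (e 1) := by
    rw [hn, C.brl (pwN f.m2 _) (pwN f.m4 _) (E.m 1), br_pw_left, br_pw_left, C.brg11 E, C.brg21 E, mul_one,
      mul_zero, zero_add]
  have hn2 : br n (e 2) = br t (e 0) + br t (e 1) := by
    rw [hn, C.brl (pwN f.m2 _) (pwN f.m4 _) (E.m 2), br_pw_left, br_pw_left, C.brg12 E, C.brg22 E, mul_one,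
      mul_one]
  have hsum := C.sum_br E (hsg t ht)
  have htv : Tv N s (e 2) (n * t) := C.Tv_N (E.m 2) ht hnN
  have hb : ∀ k, br (n * t) (e k) = br n (e k) + br t (e k) := fun k =>
    br_mul_left C.z_cen C.z_sq C.z_ne (C.sg hnN (E.m k)) (hsg t ht k)
  have k0 : br (n * t) (e 0) = 0 := by
    rw [hb, hn0]; generalize br t (e 0) = x; revert x; decide
  have k1 : br (n * t) (e 1) = 0 := by
    rw [hb, hn1]; generalize br t (e 1) = x; revert x; decide
  have k2 : br (n * t) (e 2) = 1 := by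
    rw [hb, hn2, ← hodd, ← hsum]
  refine ⟨n * t, ⟨hsg _ htv, fun x hx => ?_⟩, k0, k1, k2⟩
  have h1 := htv x hx
  have hPe : P3 e (fun k => br (n * t) (e k) * br x (e k)) = pw (e 2) (br x (e 2)) := by
    unfold P3
    simp only
    rw [k0, k1, k2, zero_mul, zero_mul, one_mul, pw_zero, pw_zero, one_mul, one_mul]
  rw [hPe]
  obtain ⟨u, hu⟩ : ∃ u, u = n * t * x * (n * t)⁻¹ * (pw (e 2) (br x (e 2)) * x)⁻¹ := ⟨_, rfl⟩
  rw [← hu] at h1
  have h2 : n * t * x * (n * t)⁻¹ = u * pw (e 2) (br x (e 2)) * x := by rw [hu]; group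
  obtain ⟨c, hc⟩ := C.refine_z hx (pwN (E.m 2) _) h1 h2 (by
    rw [C.pw_mul (E.sq 2), br_pw_right]
    have h3 : br x (e 2) + br x (e 2) = 0 := by
      have h : ∀ c : ZMod 2, c + c = 0 := by decide
      exact h _
    rw [h3, pw_zero, mul_one])
  exact ⟨c, by rw [h2, hc]⟩

/-- conjugation invariance of `J` under an element permuting the `e k` mod `z` -/
theorem J_conj (C : Cf N z s) {σ : Fin 3 → Fin 3} (hσ : ∀ k, ∃ j, σ j = k)
    (hP : ∀ c c' : Fin 3 → ZMod 2, (∀ k, c' (σ k) = c k) → P3 (fun k => e (σ k)) c = P3 e c')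
    {F : H} (hF : ∀ k, ∃ a, F * e k * F⁻¹ = zp z a * e (σ k)) {t : H} (ht : JJ N z e t) :
    JJ N z e (F * t * F⁻¹) ∧ ∀ k, br (F * t * F⁻¹) (e (σ k)) = br t (e k) := by
  have hsg : ∀ k, Sg z (F * t * F⁻¹) (e (σ k)) := by
    intro k
    obtain ⟨a, ha⟩ := hF k
    have h1 := (ht.1 k).conj C.z_cen F
    rw [ha] at h1
    have h2 := C.sg_zp_mul a h1
    rw [← mul_assoc, C.zpa] at h2
    have h3 : a + a = 0 := by
      have h : ∀ c : ZMod 2, c + c = 0 := by decide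
      exact h _
    rwa [h3, zp_zero, one_mul] at h2
  have hbr : ∀ k, br (F * t * F⁻¹) (e (σ k)) = br t (e k) := by
    intro k
    obtain ⟨a, ha⟩ := hF k
    rw [← C.br_zp_mul a (hsg k), ← ha, br_conj]
  refine ⟨⟨fun k => ?_, fun x hx => ?_⟩, hbr⟩
  · obtain ⟨j, rfl⟩ := hσ k
    exact hsg j
  · have hx' : F⁻¹ * x * F ∈ N := by simpa using C.conjN F⁻¹ hx
    obtain ⟨c, hc⟩ := ht.2 _ hx'
    set A : Fin 3 → ZMod 2 := fun k => br t (e k) * br (F⁻¹ * x * F) (e k) with hA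
    have hpw : ∀ k d, ∃ a, F * pw (e k) d * F⁻¹ = zp z a * pw (e (σ k)) d := by
      intro k d
      rcases bit_cases d with rfl | rfl
      · exact ⟨0, by rw [pw_zero, pw_zero, zp_zero]; group⟩
      · obtain ⟨a, ha⟩ := hF k
        exact ⟨a, by rw [pw_one, pw_one, ha]⟩
    obtain ⟨a0, h0⟩ := hpw 0 (A 0)
    obtain ⟨a1, h1⟩ := hpw 1 (A 1)
    obtain ⟨a2, h2⟩ := hpw 2 (A 2)
    have hFP : F * P3 e A * F⁻¹ = zp z (a0 + a1 + a2) * P3 (fun k => e (σ k)) A := by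
      unfold P3
      simp only
      calc F * (pw (e 0) (A 0) * pw (e 1) (A 1) * pw (e 2) (A 2)) * F⁻¹
          = (F * pw (e 0) (A 0) * F⁻¹) * (F * pw (e 1) (A 1) * F⁻¹) * (F * pw (e 2) (A 2) * F⁻¹) := by group
        _ = zp z a0 * (pw (e (σ 0)) (A 0) * zp z a1) * (pw (e (σ 1)) (A 1) * zp z a2) * pw (e (σ 2)) (A 2) := by
            rw [h0, h1, h2]; group
        _ = zp z a0 * zp z a1 * (pw (e (σ 0)) (A 0) * zp z a2) * pw (e (σ 1)) (A 1) * pw (e (σ 2)) (A 2) := by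
            rw [C.zpc a1 (pw (e (σ 0)) (A 0)), C.zpc a2 (pw (e (σ 1)) (A 1))]; group
        _ = _ := by rw [C.zpc a2 (pw (e (σ 0)) (A 0)), ← C.zpa, ← C.zpa]; group
    have hA' : ∀ k, br (F * t * F⁻¹) (e (σ k)) * br x (e (σ k)) = A k := by
      intro k
      rw [hA, hbr k]
      simp only
      congr 1
      obtain ⟨a, ha⟩ := hF k
      obtain ⟨k', hk'⟩ : ∃ m : Fin 3, m = k := ⟨k, rfl⟩
      have h3 : br (F⁻¹ * x * F) (e k) = br x (F * e k * F⁻¹) := by
        rw [← br_conj F]; congr 1; group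
      rw [h3, ha]
      rcases bit_cases a with rfl | rfl
      · rw [zp_zero, one_mul]
      · -- commuting with `z e` is commuting with `e`
        have h4 : ∀ y w : H, br y (zp z 1 * w) = br y w := by
          intro y w
          rw [zp_one]
          have : y * (z * w) = z * w * y ↔ y * w = w * y := by
            constructor
            · intro h
              have : z * (y * w) = z * (w * y) := by
                calc z * (y * w) = (z * y) * w := by group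
                  _ = y * (z * w) := by rw [← C.z_cen y]; group
                  _ = z * (w * y) := by rw [h]; group
              exact mul_left_cancel this
            · intro h
              calc y * (z * w) = (y * z) * w := by group
                _ = z * (y * w) := by rw [C.z_cen y]; group
                _ = z * w * y := by rw [h]; group
          rcases bit_cases (br y w) with hb | hb
          · rw [hb, br_eq_zero, this]; exact br_eq_zero.1 hb
          · rw [hb, br_ne_zero, Ne, this]; exact br_ne_zero.1 hb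
        rw [h4]
    refine ⟨c + (a0 + a1 + a2), ?_⟩
    rw [← hP A _ hA']
    calc F * t * F⁻¹ * x * (F * t * F⁻¹)⁻¹ = F * (t * (F⁻¹ * x * F) * t⁻¹) * F⁻¹ := by group
      _ = F * (zp z c * P3 e A * (F⁻¹ * x * F)) * F⁻¹ := by rw [hc]
      _ = (F * zp z c) * P3 e A * F⁻¹ * x := by group
      _ = zp z c * (F * P3 e A * F⁻¹) * x := by rw [C.zpc c F]; group
      _ = zp z (c + (a0 + a1 + a2)) * P3 (fun k => e (σ k)) A * x := by rw [hFP, ← C.zpa c]; group

/-- the cyclic permutation -/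
def cyc : Fin 3 → Fin 3 := ![1, 2, 0]

/-- the transposition of `0` and `1` -/
def swp : Fin 3 → Fin 3 := ![1, 0, 2]

theorem P3_cyc (C : Cf N z s) (E : Tri N z s e g1 g2) (c c' : Fin 3 → ZMod 2) (h : ∀ k, c' (cyc k) = c k) :
    P3 (fun k => e (cyc k)) c = P3 e c' := by
  have h0 : c' 1 = c 0 := h 0
  have h1 : c' 2 = c 1 := h 1
  have h2 : c' 0 = c 2 := h 2
  unfold P3
  show pw (e 1) (c 0) * pw (e 2) (c 1) * pw (e 0) (c 2) = pw (e 0) (c' 0) * pw (e 1) (c' 1) * pw (e 2) (c' 2)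
  rw [h0, h1, h2]
  have k1 := pw_comm (C.ecomm E 1 0) (c 0) (c 2)
  have k2 := pw_comm (C.ecomm E 2 0) (c 1) (c 2)
  rw [(k1.mul_left k2).eq, mul_assoc]

theorem P3_swp (C : Cf N z s) (E : Tri N z s e g1 g2) (c c' : Fin 3 → ZMod 2) (h : ∀ k, c' (swp k) = c k) :
    P3 (fun k => e (swp k)) c = P3 e c' := by
  have h0 : c' 1 = c 0 := h 0
  have h1 : c' 0 = c 1 := h 1
  have h2 : c' 2 = c 2 := h 2
  unfold P3
  show pw (e 1) (c 0) * pw (e 0) (c 1) * pw (e 2) (c 2) = pw (e 0) (c' 0) * pw (e 1) (c' 1) * pw (e 2) (c' 2)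
  rw [h0, h1, h2, (pw_comm (C.ecomm E 1 0) (c 0) (c 1)).eq]

theorem sq_conj_z (C : Cf N z s) {a : H} (h : a * a = z) (F : H) : F * a * F⁻¹ * (F * a * F⁻¹) = z := by
  calc F * a * F⁻¹ * (F * a * F⁻¹) = F * (a * a) * F⁻¹ := by group
    _ = z := by rw [h, C.z_cen, mul_inv_cancel_right]

/-- `e 2 ≡ e 0 e 1` mod `s` -/
theorem pi_e2 (C : Cf N z s) (E : Tri N z s e g1 g2) [(zpowers s).Normal] :
    QuotientGroup.mk' (zpowers s) (e 2) = QuotientGroup.mk' (zpowers s) (e 0) * QuotientGroup.mk' (zpowers s) (e 1) := by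
  have hs1 : QuotientGroup.mk' (zpowers s) s = 1 :=
    (QuotientGroup.eq_one_iff (N := zpowers s) _).2 (mem_zpowers s)
  rw [C.e2_eq E]
  simp only [map_mul, map_inv, hs1, mul_one]
  rw [inv_eq_iff_mul_eq_one]
  have h0 := C.pi_sq E.fr.m1
  have h1 := C.pi_sq E.fr.m3
  have hc := C.pi_comm E.fr.m1 E.fr.m3
  calc _ = QuotientGroup.mk' (zpowers s) (e 0) * (QuotientGroup.mk' (zpowers s) (e 1) *
        QuotientGroup.mk' (zpowers s) (e 0)) * QuotientGroup.mk' (zpowers s) (e 1) := by group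
    _ = (QuotientGroup.mk' (zpowers s) (e 0) * QuotientGroup.mk' (zpowers s) (e 0)) *
        (QuotientGroup.mk' (zpowers s) (e 1) * QuotientGroup.mk' (zpowers s) (e 1)) := by rw [← hc.eq]; group
    _ = 1 := by rw [h0, h1, one_mul]

/-- the element of order 3 -/
theorem exists_F [Finite H] (C : Cf N z s) (E : Tri N z s e g1 g2) :
    ∃ F : H, ∀ k, ∃ a, F * e k * F⁻¹ = zp z a * e (cyc k) := by
  have hzn := C.zs_normal
  have f := E.fr
  have f' : Fr N (e 1) (g1 * g2) (e 0 * e 1) g1 := by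
    refine ⟨f.m3, mul_mem f.m2 f.m4, mul_mem f.m1 f.m3, f.m2, ?_, ?_, ?_, ?_, ?_, ?_⟩
    · rw [C.brr f.m3 f.m2 f.m4, br_symm (e 1) g1, f.c21, f.b22, zero_add]
    · rw [C.brl f.m1 f.m3 f.m2, f.b11, br_symm (e 1) g1, f.c21, add_zero]
    · rw [C.brr f.m3 f.m1 f.m3, C.bree E, C.bree E, add_zero]
    · rw [br_symm, f.c21]
    · rw [C.brl f.m2 f.m4 (mul_mem f.m1 f.m3), C.brr f.m2 f.m1 f.m3, C.brr f.m4 f.m1 f.m3, C.brg10 E,
        C.brg11 E, C.brg20 E, C.brg21 E]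
      rfl
    · rw [C.brl f.m2 f.m4 f.m2, br_self, br_symm g2 g1, f.d12, add_zero]
  obtain ⟨F, F1, -, F3, -⟩ := C.exists_frame f f'
  refine ⟨F, ?_⟩
  have k0 : F * e 0 * F⁻¹ * (e 1)⁻¹ ∈ zpowers s := F1
  have k1 : F * e 1 * F⁻¹ * (e 2)⁻¹ ∈ zpowers s := by
    rw [← pi_eq] at F3 ⊢
    rw [F3, map_mul, C.pi_e2 E]
  have k2 : F * e 2 * F⁻¹ * (e 0)⁻¹ ∈ zpowers s := by
    rw [← pi_eq] at F1 F3 ⊢
    have e3 : QuotientGroup.mk' (zpowers s) (F * e 2 * F⁻¹) =
        QuotientGroup.mk' (zpowers s) (F * e 0 * F⁻¹) * QuotientGroup.mk' (zpowers s) (F * e 1 * F⁻¹) := by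
      rw [map_mul, map_mul, C.pi_e2 E]
      simp only [map_mul, map_inv]
      group
    rw [e3, F1, F3, map_mul]
    have h1 := C.pi_sq f.m3
    have hc := C.pi_comm f.m1 f.m3
    rw [hc.eq, ← mul_assoc, h1, one_mul]
  intro k
  fin_cases k
  · exact C.mod_z (E.m 1) (C.sq_conj_z (E.sq 0) F) (E.sq 1) k0
  · exact C.mod_z (E.m 2) (C.sq_conj_z (E.sq 1) F) (E.sq 2) k1
  · exact C.mod_z (E.m 0) (C.sq_conj_z (E.sq 2) F) (E.sq 0) k2

/-- the swap -/
theorem exists_S [Finite H] (C : Cf N z s) (E : Tri N z s e g1 g2) :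
    ∃ F : H, ∀ k, ∃ a, F * e k * F⁻¹ = zp z a * e (swp k) := by
  have hzn := C.zs_normal
  have f := E.fr
  have f' : Fr N (e 1) g2 (e 0) g1 := by
    refine ⟨f.m3, f.m4, f.m1, f.m2, f.b22, f.b11, ?_, ?_, ?_, ?_⟩
    · rw [br_symm]; exact f.b12
    · rw [br_symm]; exact f.c21
    · rw [br_symm]; exact f.c12
    · rw [br_symm]; exact f.d12
  obtain ⟨F, F1, -, F3, -⟩ := C.exists_frame f f'
  refine ⟨F, ?_⟩
  have k2 : F * e 2 * F⁻¹ * (e 2)⁻¹ ∈ zpowers s := by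
    rw [← pi_eq] at F1 F3 ⊢
    have e3 : QuotientGroup.mk' (zpowers s) (F * e 2 * F⁻¹) =
        QuotientGroup.mk' (zpowers s) (F * e 0 * F⁻¹) * QuotientGroup.mk' (zpowers s) (F * e 1 * F⁻¹) := by
      rw [map_mul, map_mul, C.pi_e2 E]
      simp only [map_mul, map_inv]
      group
    rw [e3, F1, F3, C.pi_e2 E]
    exact (C.pi_comm f.m1 f.m3).symm.eq
  intro k
  fin_cases k
  · exact C.mod_z (E.m 1) (C.sq_conj_z (E.sq 0) F) (E.sq 1) F1
  · exact C.mod_z (E.m 0) (C.sq_conj_z (E.sq 1) F) (E.sq 0) F3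
  · exact C.mod_z (E.m 2) (C.sq_conj_z (E.sq 2) F) (E.sq 2) k2

/-! ### `J/⟨z⟩` is elementary abelian -/

theorem rho_eq_one (C : Cf N z s) [(zpowers z).Normal] {a : H} :
    QuotientGroup.mk' (zpowers z) a = 1 ↔ ∃ c, a = zp z c := by
  have : QuotientGroup.mk' (zpowers z) a = 1 ↔ a ∈ zpowers z := QuotientGroup.eq_one_iff (N := zpowers z) _
  rw [this, C.mem_zz]
  constructor
  · rintro (h | h)
    · exact ⟨0, by rw [zp_zero, h]⟩
    · exact ⟨1, by rw [zp_one, h]⟩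
  · rintro ⟨c, h⟩
    rcases bit_cases c with rfl | rfl
    · left; rw [h, zp_zero]
    · right; rw [h, zp_one]

theorem rho_zs_central (C : Cf N z s) [(zpowers z).Normal] {w : H} (hw : w ∈ zpowers s)
    (x : H ⧸ zpowers z) : x * QuotientGroup.mk' (zpowers z) w = QuotientGroup.mk' (zpowers z) w * x := by
  obtain ⟨h, rfl⟩ := QuotientGroup.mk'_surjective (zpowers z) x
  have hs : QuotientGroup.mk' (zpowers z) h * QuotientGroup.mk' (zpowers z) s =
      QuotientGroup.mk' (zpowers z) s * QuotientGroup.mk' (zpowers z) h := by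
    rw [← map_mul, ← map_mul]
    rcases C.sg_s h with e | e
    · rw [e]
    · rw [e, map_mul _ z, C.rho_eq_one.2 ⟨1, zp_one.symm⟩, one_mul]
  obtain ⟨k, rfl⟩ := mem_zpowers_iff.1 hw
  rw [map_zpow]
  have : Commute (QuotientGroup.mk' (zpowers z) h) (QuotientGroup.mk' (zpowers z) s) := hs
  exact (this.zpow_right k).eq

/-- **squares of `J` lie in `⟨z⟩`** -/
theorem J_sq_z [Finite H] (C : Cf N z s) (E : Tri N z s e g1 g2) {t : H} (ht : JJ N z e t) :
    ∃ c, t * t = zp z c := by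
  have hzn := C.z_normal
  let ρ := QuotientGroup.mk' (zpowers z)
  have hodd : ∀ r, JJ N z e r → br r s = 1 → ρ r * ρ r = 1 := by
    intro r hr h
    rw [← map_mul, C.rho_eq_one]
    rcases C.J_sq_odd E hr h with h | h
    · exact ⟨0, by rw [zp_zero, h]⟩
    · exact ⟨1, by rw [zp_one, h]⟩
  obtain ⟨d2, hd2, d20, d21, d22⟩ := C.exists_D E
  obtain ⟨F, hF⟩ := C.exists_F E
  have hcs : ∀ k, ∃ j, cyc j = k := by decide
  have hJc := fun {t : H} (ht : JJ N z e t) => C.J_conj hcs (C.P3_cyc E) hF ht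
  obtain ⟨hd0, b0⟩ := hJc hd2
  obtain ⟨d0, hd0e⟩ : ∃ d0, d0 = F * d2 * F⁻¹ := ⟨_, rfl⟩
  rw [← hd0e] at hd0 b0
  have d01 : br d0 (e 1) = 0 := (b0 0).trans d20
  have d02 : br d0 (e 2) = 0 := (b0 1).trans d21
  have d00 : br d0 (e 0) = 1 := (b0 2).trans d22
  obtain ⟨hd1, b1⟩ := hJc hd0
  obtain ⟨d1, hd1e⟩ : ∃ d1, d1 = F * d0 * F⁻¹ := ⟨_, rfl⟩
  rw [← hd1e] at hd1 b1
  have d11 : br d1 (e 1) = 1 := (b1 0).trans d00
  have d12 : br d1 (e 2) = 0 := (b1 1).trans d01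
  have d10 : br d1 (e 0) = 0 := (b1 2).trans d02
  obtain ⟨hd3, b3⟩ := hJc hd1
  obtain ⟨d3, hd3e⟩ : ∃ d3, d3 = F * d1 * F⁻¹ := ⟨_, rfl⟩
  rw [← hd3e] at hd3 b3
  have d31 : br d3 (e 1) = 0 := (b3 0).trans d10
  have d32 : br d3 (e 2) = 1 := (b3 1).trans d11
  have d30 : br d3 (e 0) = 0 := (b3 2).trans d12
  have o2 : br d2 s = 1 := by rw [← C.sum_br E hd2.1, d20, d21, d22]; rfl
  have o0 : br d0 s = 1 := by rw [← C.sum_br E hd0.1, d00, d01, d02]; rfl
  have o1 : br d1 s = 1 := by rw [← C.sum_br E hd1.1, d10, d11, d12]; rfl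
  have q2 := hodd d2 hd2 o2
  have q0 := hodd d0 hd0 o0
  have q1 := hodd d1 hd1 o1
  have bmul : ∀ {a b : H}, JJ N z e a → JJ N z e b → ∀ k, br (a * b) (e k) = br a (e k) + br b (e k) := by
    intro a b ha hb k
    exact br_mul_left C.z_cen C.z_sq C.z_ne (ha.1 k) (hb.1 k)
  -- `J` centralises `{n ∈ N : n_k = 0}` mod `z`
  have hcen : ∀ r, JJ N z e r → ∀ n ∈ N, (∀ k, br n (e k) = 0) → Commute (ρ r) (ρ n) := by
    intro r hr n hn h0
    obtain ⟨c, hc⟩ := hr.2 n hn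
    have : (fun k => br r (e k) * br n (e k)) = fun _ => 0 := by
      funext k; rw [h0, mul_zero]
    rw [this, P3_zero, mul_one] at hc
    have h1 : ρ r * ρ n * (ρ r)⁻¹ = ρ n := by
      have h2 := congrArg ρ hc
      have h3 : ρ (zp z c) = 1 := C.rho_eq_one.2 ⟨c, rfl⟩
      rw [map_mul ρ (zp z c), h3, one_mul, map_mul, map_mul, map_inv] at h2
      exact h2
    exact mul_inv_eq_iff_eq_mul.1 h1
  -- commutators of `J` are in `⟨s⟩`
  have hcom : ∀ a b, JJ N z e a → JJ N z e b → ρ a * ρ a = 1 → ρ b * ρ b = 1 →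
      ∃ w ∈ zpowers s, ρ a * ρ b = ρ w * (ρ b * ρ a) ∧ ρ w * ρ w = 1 := by
    intro a b ha hb qa qb
    refine ⟨(a * b) * (a * b), C.J_sq E (C.J_mul E ha hb), ?_, ?_⟩
    · rw [map_mul, map_mul]
      calc ρ a * ρ b = ρ a * ρ b * (ρ a * ((ρ b * ρ b)) * ρ a) := by rw [qb, mul_one, qa, mul_one]
        _ = _ := by group
    · rw [← map_mul, C.rho_eq_one]
      have h1 := C.J_sq E (C.J_mul E ha hb)
      have h2 : ∀ w ∈ zpowers s, ∃ c, w * w = zp z c := by
        intro w hw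
        rcases C.sq w (C.zs_le hw) with h | h
        · exact ⟨0, by rw [zp_zero, h]⟩
        · exact ⟨1, by rw [zp_one, h]⟩
      exact h2 _ h1
  obtain ⟨w, hw, hw1, hw2⟩ := hcom d2 d0 hd2 hd0 q2 q0
  have hwc : ∀ x, x * ρ w = ρ w * x := C.rho_zs_central hw
  -- conjugating by `F`
  have c01 : ρ d0 * ρ d1 = ρ w * (ρ d1 * ρ d0) := by
    have h1 : ρ d0 * ρ d1 = ρ F * (ρ d2 * ρ d0) * (ρ F)⁻¹ := by
      rw [hd1e, hd0e]; simp only [map_mul, map_inv]; group
    have h2 : ρ d1 * ρ d0 = ρ F * (ρ d0 * ρ d2) * (ρ F)⁻¹ := by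
      rw [hd1e, hd0e]; simp only [map_mul, map_inv]; group
    rw [h1, h2, hw1]
    calc ρ F * (ρ w * (ρ d0 * ρ d2)) * (ρ F)⁻¹ = (ρ F * ρ w) * (ρ d0 * ρ d2) * (ρ F)⁻¹ := by group
      _ = _ := by rw [hwc (ρ F)]; group
  have c13 : ρ d1 * ρ d3 = ρ w * (ρ d3 * ρ d1) := by
    have h1 : ρ d1 * ρ d3 = ρ F * (ρ d0 * ρ d1) * (ρ F)⁻¹ := by
      rw [hd3e]
      conv_lhs => rw [hd1e]
      conv_rhs => rw [hd1e]
      simp only [map_mul, map_inv]; group
    have h2 : ρ d3 * ρ d1 = ρ F * (ρ d1 * ρ d0) * (ρ F)⁻¹ := by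
      rw [hd3e]
      conv_lhs => rw [hd1e]
      conv_rhs => rw [hd1e]
      simp only [map_mul, map_inv]; group
    rw [h1, h2, c01]
    calc ρ F * (ρ w * (ρ d1 * ρ d0)) * (ρ F)⁻¹ = (ρ F * ρ w) * (ρ d1 * ρ d0) * (ρ F)⁻¹ := by group
      _ = _ := by rw [hwc (ρ F)]; group
  -- `d3 ≡ m d2`
  have hm := C.J_mul E hd3 hd2
  have hm0 : ∀ k, br (d3 * d2) (e k) = 0 := by
    intro k
    rw [bmul hd3 hd2]
    fin_cases k
    · show br d3 (e 0) + br d2 (e 0) = 0
      rw [d30, d20]; rfl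
    · show br d3 (e 1) + br d2 (e 1) = 0
      rw [d31, d21]; rfl
    · show br d3 (e 2) + br d2 (e 2) = 0
      rw [d32, d22]; rfl
  have hmN := C.J_zero hm hm0
  have hmc := hcen d1 hd1 _ hmN hm0
  have c12 : ρ d1 * ρ d2 = ρ w * (ρ d2 * ρ d1) := by
    have h3 : ρ d2 = ρ d3⁻¹ * ρ (d3 * d2) := by rw [← map_mul]; congr 1; group
    have h31 : ρ d3 * ρ d1 = ρ w * (ρ d1 * ρ d3) := by
      rw [c13, ← mul_assoc, hw2, one_mul]
    have h4 : ρ d1 * ρ d3⁻¹ = ρ w * (ρ d3⁻¹ * ρ d1) := by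
      rw [map_inv]
      calc ρ d1 * (ρ d3)⁻¹ = (ρ d3)⁻¹ * (ρ d3 * ρ d1) * (ρ d3)⁻¹ := by group
        _ = ((ρ d3)⁻¹ * ρ w) * (ρ d1 * ρ d3) * (ρ d3)⁻¹ := by rw [h31]; group
        _ = ρ w * ((ρ d3)⁻¹ * ρ d1) := by rw [hwc (ρ d3)⁻¹]; group
    calc ρ d1 * ρ d2 = (ρ d1 * ρ d3⁻¹) * ρ (d3 * d2) := by rw [h3]; group
      _ = ρ w * (ρ d3⁻¹ * (ρ d1 * ρ (d3 * d2))) := by rw [h4]; group
      _ = ρ w * (ρ d3⁻¹ * (ρ (d3 * d2) * ρ d1)) := by rw [hmc.eq]
      _ = ρ w * (ρ d2 * ρ d1) := by rw [h3]; group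
  -- hence `ρ w = 1`
  have hd := C.J_mul E (C.J_mul E hd0 hd1) hd2
  have hdo : br (d0 * d1 * d2) s = 1 := by
    rw [← C.sum_br E hd.1, bmul (C.J_mul E hd0 hd1) hd2, bmul (C.J_mul E hd0 hd1) hd2,
      bmul (C.J_mul E hd0 hd1) hd2, bmul hd0 hd1, bmul hd0 hd1, bmul hd0 hd1, d00, d01, d02, d10, d11, d12,
      d20, d21, d22]
    rfl
  have hκ := kap3 q0 q1 q2 hw2 hwc hw1 c01 c12
  have hκ1 : ρ w = 1 := by
    rw [← hκ]
    have := hodd _ hd hdo
    rw [map_mul, map_mul] at this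
    exact this
  rw [hκ1, one_mul] at hw1 c01 c12
  -- decompose `t`
  have hpJ : ∀ r, JJ N z e r → ∀ c, JJ N z e (pw r c) := by
    intro r hr c
    rcases bit_cases c with rfl | rfl
    · rw [pw_zero]; exact C.N_J E (one_mem _) (fun k => one_br _)
    · rw [pw_one]; exact hr
  have hpc : ∀ a b : H, Commute (ρ a) (ρ b) → ∀ c d, Commute (ρ (pw a c)) (ρ (pw b d)) := by
    intro a b hab c d
    rcases bit_cases c with rfl | rfl <;> rcases bit_cases d with rfl | rfl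
    · rw [pw_zero, map_one]; exact Commute.one_left _
    · rw [pw_zero, map_one]; exact Commute.one_left _
    · rw [pw_zero b, map_one]; exact Commute.one_right _
    · rw [pw_one, pw_one]; exact hab
  have hpq : ∀ a : H, ρ a * ρ a = 1 → ∀ c, ρ (pw a c) * ρ (pw a c) = 1 := by
    intro a ha c
    rcases bit_cases c with rfl | rfl
    · rw [pw_zero, map_one, one_mul]
    · rw [pw_one, ha]
  set P := pw d0 (br t (e 0)) * pw d1 (br t (e 1)) * pw d2 (br t (e 2)) with hPd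
  have hPJ : JJ N z e P := C.J_mul E (C.J_mul E (hpJ _ hd0 _) (hpJ _ hd1 _)) (hpJ _ hd2 _)
  have hPb : ∀ k, br P (e k) = br t (e k) := by
    intro k
    rw [hPd, bmul (C.J_mul E (hpJ _ hd0 _) (hpJ _ hd1 _)) (hpJ _ hd2 _), bmul (hpJ _ hd0 _) (hpJ _ hd1 _),
      br_pw_left, br_pw_left, br_pw_left]
    fin_cases k
    · show br t (e 0) * br d0 (e 0) + br t (e 1) * br d1 (e 0) + br t (e 2) * br d2 (e 0) = br t (e 0)
      rw [d00, d10, d20]; ring
    · show br t (e 0) * br d0 (e 1) + br t (e 1) * br d1 (e 1) + br t (e 2) * br d2 (e 1) = br t (e 1)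
      rw [d01, d11, d21]; ring
    · show br t (e 0) * br d0 (e 2) + br t (e 1) * br d1 (e 2) + br t (e 2) * br d2 (e 2) = br t (e 2)
      rw [d02, d12, d22]; ring
  have hPq : ρ P * ρ P = 1 := by
    have k01 : Commute (ρ d0) (ρ d1) := c01
    have k20 : Commute (ρ d2) (ρ d0) := hw1
    have k12 : Commute (ρ d1) (ρ d2) := c12
    have m1 := hpc _ _ k01 (br t (e 0)) (br t (e 1))
    have m2 := hpc _ _ k20.symm (br t (e 0)) (br t (e 2))
    have m3 := hpc _ _ k12 (br t (e 1)) (br t (e 2))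
    rw [hPd, map_mul, map_mul]
    calc ρ (pw d0 (br t (e 0))) * ρ (pw d1 (br t (e 1))) * ρ (pw d2 (br t (e 2))) *
          (ρ (pw d0 (br t (e 0))) * ρ (pw d1 (br t (e 1))) * ρ (pw d2 (br t (e 2))))
        = ρ (pw d0 (br t (e 0))) * ρ (pw d1 (br t (e 1))) * (ρ (pw d2 (br t (e 2))) *
          (ρ (pw d0 (br t (e 0))) * ρ (pw d1 (br t (e 1))))) * ρ (pw d2 (br t (e 2))) := by group
      _ = ρ (pw d0 (br t (e 0))) * ρ (pw d1 (br t (e 1))) * ((ρ (pw d0 (br t (e 0))) *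
          ρ (pw d1 (br t (e 1)))) * ρ (pw d2 (br t (e 2)))) * ρ (pw d2 (br t (e 2))) := by
          rw [(m2.mul_left m3).eq]
      _ = ρ (pw d0 (br t (e 0))) * (ρ (pw d1 (br t (e 1))) * ρ (pw d0 (br t (e 0)))) *
          ρ (pw d1 (br t (e 1))) * (ρ (pw d2 (br t (e 2))) * ρ (pw d2 (br t (e 2)))) := by group
      _ = (ρ (pw d0 (br t (e 0))) * ρ (pw d0 (br t (e 0)))) * (ρ (pw d1 (br t (e 1))) *
          ρ (pw d1 (br t (e 1)))) := by rw [← m1.eq, hpq _ q2, mul_one]; group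
      _ = 1 := by rw [hpq _ q0, hpq _ q1, one_mul]
  have hn := C.J_mul E ht hPJ
  have hn0 : ∀ k, br (t * P) (e k) = 0 := by
    intro k
    rw [bmul ht hPJ, hPb]
    generalize br t (e k) = x; revert x; decide
  have hnN := C.J_zero hn hn0
  have hnc := hcen P hPJ _ hnN hn0
  have hnq : ρ (t * P) * ρ (t * P) = 1 := by
    rw [← map_mul, C.rho_eq_one]
    rcases C.sq _ hnN with h | h
    · exact ⟨0, by rw [zp_zero, h]⟩
    · exact ⟨1, by rw [zp_one, h]⟩
  rw [← C.rho_eq_one, map_mul]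
  show ρ t * ρ t = 1
  have ht' : ρ t = ρ (t * P) * ρ P := by
    rw [map_mul, mul_assoc, hPq, mul_one]
  calc ρ t * ρ t = ρ (t * P) * (ρ P * ρ (t * P)) * ρ P := by rw [ht']; group
    _ = (ρ (t * P) * ρ (t * P)) * (ρ P * ρ P) := by rw [hnc.eq]; group
    _ = 1 := by rw [hnq, hPq, one_mul]

end Cf

end Cfsg.Agent.H336.Co3
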