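import Cfsg.Agent.H336.Co3.NChar

/-!
# Normal subgroups of `H` inside `N` (helper336)
-/

set_option autoImplicit false

open Subgroup

namespace Cfsg.Agent.H336.Co3

variable {H : Type*} [Group H]

namespace Cf

variable {N : Subgroup H} {z s : H}

/-- the normal subgroups of `H` in `N` containing `z` -/
theorem P_cases [Finite H] (C : Cf N z s) (D : Subgroup H) [hD : D.Normal] (hz : z ∈ D) (hDN : D ≤ N) :
    D = zpowers z ∨ D = zpowers s ∨ D = N := by
  classical
  have hzn := C.zs_normal
  by_cases hs : s ∈ D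
  · right
    have hsD : zpowers s ≤ D := by rw [zpowers_le]; exact hs
    by_cases hle : D ≤ zpowers s
    · exact Or.inl (le_antisymm hle hsD)
    · right
      obtain ⟨a, haD, has⟩ := Set.not_subset.1 hle
      have haN : a ∈ N := hDN haD
      obtain ⟨g, x, y, f⟩ := C.fr0 haN has
      -- every frame vector is in `D`
      have key : ∀ b k c d, Fr N b k c d → b ∈ D := by
        intro b k c d f'
        obtain ⟨h, h1, -⟩ := C.exists_frame f f'
        have h2 : h * a * h⁻¹ ∈ D := hD.conj_mem a haD h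
        have h3 : b = (h * a * h⁻¹ * b⁻¹)⁻¹ * (h * a * h⁻¹) := by group
        rw [h3]; exact mul_mem (inv_mem (hsD h1)) h2
      have f1 : Fr N g a y x := ⟨f.m2, f.m1, f.m4, f.m3, by rw [br_symm]; exact f.b11, by rw [br_symm]; exact f.b22,
        f.d12, f.c21, f.c12, f.b12⟩
      have f2 : Fr N x y a g := ⟨f.m3, f.m4, f.m1, f.m2, f.b22, f.b11, by rw [br_symm]; exact f.b12,
        by rw [br_symm]; exact f.c21, by rw [br_symm]; exact f.c12, by rw [br_symm]; exact f.d12⟩
      have f3 : Fr N y x g a := ⟨f.m4, f.m3, f.m2, f.m1, by rw [br_symm]; exact f.b22, by rw [br_symm]; exact f.b11,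
        by rw [br_symm]; exact f.d12, by rw [br_symm]; exact f.c12, by rw [br_symm]; exact f.c21,
        by rw [br_symm]; exact f.b12⟩
      refine le_antisymm hDN fun n hn => ?_
      exact C.ind f (fun n => n ∈ D) (fun u hu => hsD hu) haD (key _ _ _ _ f1) (key _ _ _ _ f2)
        (key _ _ _ _ f3) (fun a _ b _ pa pb => mul_mem pa pb) n hn
  · left
    have hzs : z * s ∉ D := by
      intro h
      apply hs
      have : s = z⁻¹ * (z * s) := by group
      rw [this]; exact mul_mem (inv_mem hz) h
    have hDs : ∀ u ∈ D, u ∈ zpowers s → ∃ c, u = zp z c := by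
      intro u hu hus
      rcases C.mem_zs.1 hus with h | h | h | h
      · exact ⟨0, by rw [zp_zero, h]⟩
      · exact absurd (h ▸ hu) hs
      · exact ⟨1, by rw [zp_one, h]⟩
      · exact absurd (h ▸ hu) hzs
    have hle : D ≤ zpowers s := by
      by_contra hle
      obtain ⟨a, haD, has⟩ := Set.not_subset.1 hle
      have haN : a ∈ N := hDN haD
      obtain ⟨g, x, y, f⟩ := C.fr0 haN has
      -- conjugates: a frame vector `b` has a multiple `u b ∈ D`, with the same square as `a`
      have key : ∀ b k c d, Fr N b k c d → ∃ u ∈ zpowers s, u * b ∈ D ∧ (u * b) * (u * b) = a * a := by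
        intro b k c d f'
        obtain ⟨h, h1, -⟩ := C.exists_frame f f'
        refine ⟨h * a * h⁻¹ * b⁻¹, h1, ?_, ?_⟩
        · rw [inv_mul_cancel_right]; exact hD.conj_mem a haD h
        · rw [inv_mul_cancel_right]
          obtain ⟨c', hc'⟩ := C.N_sq haN
          calc h * a * h⁻¹ * (h * a * h⁻¹) = h * (a * a) * h⁻¹ := by group
            _ = a * a := by rw [hc', C.zpc, mul_inv_cancel_right]
      have f1 : Fr N g a y x := ⟨f.m2, f.m1, f.m4, f.m3, by rw [br_symm]; exact f.b11, by rw [br_symm]; exact f.b22,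
        f.d12, f.c21, f.c12, f.b12⟩
      have f2 : Fr N x y a g := ⟨f.m3, f.m4, f.m1, f.m2, f.b22, f.b11, by rw [br_symm]; exact f.b12,
        by rw [br_symm]; exact f.c21, by rw [br_symm]; exact f.c12, by rw [br_symm]; exact f.d12⟩
      -- `b ∈ D`, `b ∉ ⟨s⟩` has square `a²`
      have hsq : ∀ b ∈ D, b ∉ zpowers s → b * b = a * a := by
        intro b hb hbs
        obtain ⟨g', x', y', f'⟩ := C.fr0 (hDN hb) hbs
        obtain ⟨u, hu, huD, hu2⟩ := key b g' x' y' f'
        have h1 : u ∈ D := by
          have : u = (u * b) * b⁻¹ := by group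
          rw [this]; exact mul_mem huD (inv_mem hb)
        obtain ⟨c, hc⟩ := hDs u h1 hu
        rw [← hu2, hc]
        calc b * b = zp z (c + c) * (b * b) := by rw [zmod_add_self, zp_zero, one_mul]
          _ = zp z c * (zp z c * b) * b := by rw [← C.zpa]; group
          _ = zp z c * (b * zp z c) * b := by rw [C.zpc c b]
          _ = _ := by group
      obtain ⟨u, hu, huD, hu2⟩ := key g a y x f1
      obtain ⟨v, hv, hvD, hv2⟩ := key x y a g f2
      -- `a` and `v x` commute: `(a v x)² = 1`, so `a² = 1`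
      have hns : ∀ b k c d, Fr N b k c d → ∀ u ∈ zpowers s, u * b ∉ zpowers s := by
        intro b k c d f' u hu h
        have h1 : b ∈ zpowers s := by
          have : b = u⁻¹ * (u * b) := by group
          rw [this]; exact mul_mem (inv_mem hu) h
        have h2 := C.br_zs_left h1 f'.m2
        rw [f'.b11] at h2; exact one_ne_zero h2
      obtain ⟨ca, hca⟩ := C.N_sq haN
      have hvx : v * x ∈ N := hDN hvD
      have hcax : br a (v * x) = 0 := by
        rw [C.brr haN (C.zs_le hv) f.m3, C.br_zs_right hv haN, f.b12, add_zero]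
      have hax : a * (v * x) ∉ zpowers s := by
        intro h
        have h1 := C.br_zs_left h f.m4
        rw [C.brl haN hvx f.m4, C.brl (C.zs_le hv) f.m3 f.m4, C.br_zs_left hv f.m4, f.c12, f.b22] at h1
        rw [zero_add, zero_add] at h1
        exact one_ne_zero h1
      have h1 := hsq _ (mul_mem haD hvD) hax
      have h2 : a * (v * x) * (a * (v * x)) = (a * a) * ((v * x) * (v * x)) := by
        have h3 : (v * x) * a = a * (v * x) := (br_eq_zero.1 hcax).symm
        calc a * (v * x) * (a * (v * x)) = a * ((v * x) * a) * (v * x) := by group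
          _ = _ := by rw [h3]; group
      rw [h2, hv2, hca, C.zpa, zmod_add_self, zp_zero] at h1
      have hca0 : ca = 0 := (zp_eq_one C.z_ne).1 h1.symm
      -- `a` and `u g` anticommute
      have hug : u * g ∈ N := hDN huD
      have hcag : br a (u * g) = 1 := by
        rw [C.brr haN (C.zs_le hu) f.m2, C.br_zs_right hu haN, f.b11, zero_add]
      have hag : a * (u * g) ∉ zpowers s := by
        intro h
        have h1 := C.br_zs_left h haN
        rw [C.brl haN hug haN, br_self, br_symm (u * g) a, hcag, zero_add] at h1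
        exact one_ne_zero h1
      have h4 := hsq _ (mul_mem haD huD) hag
      have h5 : a * (u * g) * (a * (u * g)) = z := by
        have h6 : (u * g) * a = zp z 1 * (a * (u * g)) := by
          have := ((C.sg hug haN)).eq C.z_ne
          rw [br_symm, hcag] at this
          exact this
        calc a * (u * g) * (a * (u * g)) = a * ((u * g) * a) * (u * g) := by group
          _ = (a * zp z 1) * (a * (u * g)) * (u * g) := by rw [h6]; group
          _ = zp z 1 * (a * a) * ((u * g) * (u * g)) := by rw [C.zpc 1 a]; group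
          _ = z := by rw [hu2, hca, hca0, zp_zero, zp_one, mul_one, mul_one]
      rw [h5, hca, hca0, zp_zero] at h4
      exact C.z_ne h4
    refine le_antisymm ?_ (by rw [zpowers_le]; exact hz)
    intro u hu
    obtain ⟨c, hc⟩ := hDs u hu (hle hu)
    rw [C.mem_zz, hc]
    rcases bit_cases c with rfl | rfl
    · left; rw [zp_zero]
    · right; rw [zp_one]

/-- build the configuration from the weaker faithfulness -/
theorem mk' (hn : N.Normal) (card : Nat.card N = 64) (sN : s ∈ N) (s_sq : s * s = z) (z_sq : z * z = 1)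
    (z_ne : z ≠ 1) (s_cen : ∀ n ∈ N, n * s = s * n) (sq : ∀ n ∈ N, n * n = 1 ∨ n * n = z)
    (comm : ∀ n ∈ N, ∀ m ∈ N, n * m = m * n ∨ n * m = z * (m * n))
    (cen : ∀ n ∈ N, (∀ m ∈ N, n * m = m * n) → n ∈ zpowers s) (z_cen : ∀ h : H, h * z = z * h)
    (inv : ∃ h : H, h * s ≠ s * h) (iso : Nonempty (H ⧸ N ≃* Equiv.Perm (Fin 6)))
    (faith : ∀ h : H, (∀ n ∈ N, h * n * h⁻¹ * n⁻¹ ∈ zpowers z) → h ∈ N) : Cf N z s := by
  have hzs : ∀ x, x ∈ zpowers s → x = 1 ∨ x = s ∨ x = z ∨ x = z * s := by
    intro x hx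
    obtain ⟨k, rfl⟩ := mem_zpowers_iff.1 hx
    have h4 : s ^ (4 : ℤ) = 1 := by
      have : s ^ (4 : ℤ) = (s * s) * (s * s) := by
        rw [show (4 : ℤ) = 1 + 1 + (1 + 1) by norm_num]; simp only [zpow_add, zpow_one]
      rw [this, s_sq, z_sq]
    have h2 : s ^ (2 : ℤ) = z := by rw [← s_sq, zpow_two]
    have h3 : s ^ (3 : ℤ) = z * s := by
      rw [← s_sq, show (3 : ℤ) = 1 + 1 + 1 by norm_num]; simp only [zpow_add, zpow_one]
    have e : s ^ k = s ^ (k % 4) := by
      conv_lhs => rw [← Int.mul_ediv_add_emod k 4, zpow_add, zpow_mul, h4, one_zpow, one_mul]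
    have hk : 0 ≤ k % 4 ∧ k % 4 < 4 := ⟨Int.emod_nonneg _ (by norm_num), Int.emod_lt_of_pos _ (by norm_num)⟩
    rw [e]
    obtain h | h | h | h : k % 4 = 0 ∨ k % 4 = 1 ∨ k % 4 = 2 ∨ k % 4 = 3 := by omega
    · left; rw [h, zpow_zero]
    · right; left; rw [h, zpow_one]
    · right; right; left; rw [h, h2]
    · right; right; right; rw [h, h3]
  have zN : z ∈ N := by rw [← s_sq]; exact mul_mem sN sN
  refine ⟨hn, card, sN, s_sq, z_sq, z_ne, s_cen, sq, comm, cen, z_cen, inv, iso, fun h hh => faith h fun n hnN => ?_⟩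
  -- `h n h⁻¹ = u n` with `u ∈ ⟨s⟩`, squares force `u ∈ ⟨z⟩`
  obtain ⟨u, hu⟩ : ∃ u, u = h * n * h⁻¹ * n⁻¹ := ⟨_, rfl⟩
  have hus : u ∈ zpowers s := by rw [hu]; exact hh n hnN
  have e1 : h * n * h⁻¹ = u * n := by rw [hu]; group
  have hun : u * n = n * u := by
    obtain ⟨k, rfl⟩ := mem_zpowers_iff.1 hus
    have : Commute s n := (s_cen n hnN).symm
    exact (this.zpow_left k).eq
  have e2 : h * (n * n) * h⁻¹ = (u * u) * (n * n) := by
    calc h * (n * n) * h⁻¹ = (h * n * h⁻¹) * (h * n * h⁻¹) := by group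
      _ = u * (n * u) * n := by rw [e1]; group
      _ = (u * u) * (n * n) := by rw [← hun]; group
  have e3 : h * (n * n) * h⁻¹ = n * n := by
    rcases sq n hnN with h' | h'
    · rw [h']; group
    · rw [h', z_cen, mul_inv_cancel_right]
  have e4 : u * u = 1 := by
    rw [e3] at e2
    have : 1 * (n * n) = (u * u) * (n * n) := by rw [one_mul]; exact e2
    exact (mul_right_cancel this).symm
  rw [← hu]
  rcases hzs u hus with h' | h' | h' | h'
  · rw [h']; exact one_mem _
  · exfalso; rw [h', s_sq] at e4; exact z_ne e4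
  · rw [h']; exact mem_zpowers _
  · exfalso
    rw [h'] at e4
    have : z * s * (z * s) = z := by
      calc z * s * (z * s) = z * (s * z) * s := by group
        _ = z * (z * s) * s := by rw [z_cen s]
        _ = (z * z) * (s * s) := by group
        _ = z := by rw [z_sq, s_sq, one_mul]
    rw [this] at e4
    exact z_ne e4

end Cf

end Cfsg.Agent.H336.Co3
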